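import Cfsg.Agent.LinearBound.PRational
import Cfsg.Agent.BlocksChar.ClassProd
import Cfsg.Agent.CharInd.Basic

/-!
The field generated by the values of all irreducible characters at an element of order `N` which is
conjugate to its `k`-th power and to no other power but these two.
-/

set_option autoImplicit false
set_option linter.style.haveILetI false

noncomputable section

namespace Cfsg.Agent.FieldTwo

open Cfsg IntermediateField
open scoped Classical

universe u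

variable {G : Type u} [Group G]

/-- The field generated by the values of all irreducible characters at `g`. -/
abbrev valueField (g : G) : IntermediateField ℚ ℂ :=
  IntermediateField.adjoin ℚ {z : ℂ | ∃ χ : Cfsg.IrrCharacter G, (χ : G → ℂ) g = z}

/-- Sums of equal powers of two numbers stay in a field containing their sum and product. -/
theorem pow_add_pow_mem (K : IntermediateField ℚ ℂ) {a b : ℂ} (hs : a + b ∈ K) (hm : a * b ∈ K) :
    ∀ c : ℕ, a ^ c + b ^ c ∈ K := by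
  intro c
  induction c using Nat.twoStepInduction with
  | zero => simpa using add_mem (one_mem K) (one_mem K)
  | one => simpa using hs
  | more c h1 h2 =>
    have e : a ^ (c + 2) + b ^ (c + 2) =
        (a + b) * (a ^ (c + 1) + b ^ (c + 1)) - (a * b) * (a ^ c + b ^ c) := by ring
    rw [e]
    exact sub_mem (mul_mem hs h2) (mul_mem hm h1)

/-- Any character value lies in the value field. -/
theorem apply_mem_valueField [Finite G] {χ : G → ℂ} (hχ : IsCharacter G χ) (g : G) :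
    χ g ∈ valueField g := by
  obtain ⟨s, rfl⟩ := Char.isCharacter_eq_multiset_sum hχ
  clear hχ
  induction s using Multiset.induction_on with
  | empty => simp
  | cons a s ih =>
    rw [Multiset.map_cons, Multiset.sum_cons, Pi.add_apply]
    exact add_mem (subset_adjoin _ _ ⟨a, rfl⟩) ih

/-- The values at an element conjugate to its `k`-th power lie in `ℚ(ζ + ζ ^ k)`. -/
theorem valueField_le [Finite G] {g : G} {N k : ℕ} (hN : 0 < N) {ζ : ℂ}
    (hζ : IsPrimitiveRoot ζ N) (hg : orderOf g ∣ N) (hconj : IsConj g (g ^ k))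
    (hprod : ζ * ζ ^ k = 1 ∨ ζ * ζ ^ k = -1) :
    valueField g ≤ adjoin ℚ ({ζ + ζ ^ k} : Set ℂ) := by
  set K := adjoin ℚ ({ζ + ζ ^ k} : Set ℂ) with hK
  refine adjoin_le_iff.2 ?_
  rintro _ ⟨χ, rfl⟩
  obtain ⟨d, c, hc⟩ := LinearBound.exists_pow_sum (Char.isCharacter_of_irr χ.2) hN hζ hg
  have h1 := hc 1
  have h2 := hc k
  rw [pow_one] at h1
  simp only [pow_one] at h1
  rw [← Char.isClassFunction_eq_of_isConj (Char.irr_isClassFunction χ.2) hconj] at h2
  have hm : ζ * ζ ^ k ∈ K := by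
    rcases hprod with h | h <;> rw [h]
    · exact one_mem K
    · exact neg_mem (one_mem K)
  have hsum : (χ : G → ℂ) g + (χ : G → ℂ) g ∈ K := by
    nth_rewrite 1 [h1]
    rw [h2, ← Finset.sum_add_distrib]
    refine sum_mem fun i _ => ?_
    rw [← pow_mul, mul_comm, pow_mul]
    exact pow_add_pow_mem K (subset_adjoin _ _ rfl) hm (c i)
  have e : (χ : G → ℂ) g = ((χ : G → ℂ) g + (χ : G → ℂ) g) / (1 + 1) := by ring
  rw [SetLike.mem_coe, e]
  exact div_mem hsum (add_mem (one_mem K) (one_mem K))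

/-- If the only powers conjugate to `g` are `g` and `g ^ k`, the value field contains `ζ + ζ ^ k`. -/
theorem le_valueField [Finite G] {g : G} {N k : ℕ} (hN : 0 < N) {ζ : ℂ}
    (hζ : IsPrimitiveRoot ζ N) (hg : orderOf g = N) {y : G} (hy : y⁻¹ * g * y = g ^ k)
    (hk : g ^ (k * k) = g)
    (honly : ∀ x : G, x⁻¹ * g * x ∈ Subgroup.zpowers g →
      x⁻¹ * g * x = g ∨ x⁻¹ * g * x = g ^ k) :
    adjoin ℚ ({ζ + ζ ^ k} : Set ℂ) ≤ valueField g := by
  letI := Fintype.ofFinite G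
  rw [adjoin_simple_le_iff]
  set H := Subgroup.zpowers g with hH
  -- the faithful linear character of `⟨g⟩`
  let gH : H := ⟨g, Subgroup.mem_zpowers g⟩
  have hgen : ∀ x : H, x ∈ Subgroup.zpowers gH := by
    rintro ⟨x, i, rfl⟩
    exact ⟨i, Subtype.ext (by simp [gH])⟩
  have hζu : IsUnit ζ := hζ.isUnit hN.ne'
  have hord : orderOf hζu.unit ∣ orderOf gH := by
    rw [Subgroup.orderOf_mk, hg]
    exact orderOf_dvd_of_pow_eq_one (Units.ext (by simpa using hζ.pow_eq_one))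
  let lam : H →* ℂˣ := monoidHomOfForallMemZpowers hgen hord
  have hlam : ((lam gH : ℂˣ) : ℂ) = ζ := by
    simp [lam, monoidHomOfForallMemZpowers_apply_gen]
  have hlamk : ((lam (gH ^ k) : ℂˣ) : ℂ) = ζ ^ k := by
    rw [map_pow, Units.val_pow_eq_pow_val, hlam]
  set f : G → ℂ := extendByZero H (fun h => (lam h : ℂ)) with hf
  have hfg : f g = ζ := by
    rw [hf, show g = ((gH : H) : G) from rfl, CharInd.extendByZero_coe, hlam]
  have hfk : f (g ^ k) = ζ ^ k := by
    rw [hf, show g ^ k = ((gH ^ k : H) : G) from rfl, CharInd.extendByZero_coe, hlamk]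
  have hkey : ∀ x : G, f (x⁻¹ * g * x) + f (y⁻¹ * (x⁻¹ * g * x) * y) =
      if x⁻¹ * g * x ∈ H then ζ + ζ ^ k else 0 := by
    intro x
    by_cases hx : x⁻¹ * g * x ∈ H
    · rw [if_pos hx]
      rcases honly x hx with h | h <;> rw [h]
      · rw [hy, hfg, hfk]
      · have e : y⁻¹ * g ^ k * y = g := by
          have h1 := (map_pow (MulAut.conj y⁻¹) g k)
          simp only [MulAut.conj_apply, inv_inv] at h1
          rw [h1, hy, ← pow_mul, hk]
        rw [e, hfg, hfk, add_comm]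
    · rw [if_neg hx, hf, CharInd.extendByZero_notMem _ _ hx, CharInd.extendByZero_notMem, add_zero]
      intro h
      apply hx
      obtain ⟨i, hi⟩ := h
      -- `y` normalises `⟨g⟩`
      have e1 : y * g * y⁻¹ ∈ H := by
        have h1 := (map_pow (MulAut.conj y) (y⁻¹ * g * y) k)
        simp only [MulAut.conj_apply] at h1
        rw [show y * (y⁻¹ * g * y) * y⁻¹ = g by group, hy, ← pow_mul, hk] at h1
        rw [h1]
        exact pow_mem (Subgroup.mem_zpowers g) k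
      have e2 : x⁻¹ * g * x = (y * g * y⁻¹) ^ i := by
        change g ^ i = y⁻¹ * (x⁻¹ * g * x) * y at hi
        have h1 := map_zpow (MulAut.conj y) g i
        simp only [MulAut.conj_apply] at h1
        rw [← h1, hi]
        group
      rw [e2]
      exact zpow_mem e1 i
  have hsum : ∑ x : G, f (x⁻¹ * g * x) + ∑ x : G, f (x⁻¹ * g * x) =
      ((Finset.univ.filter fun x : G => x⁻¹ * g * x ∈ H).card : ℂ) * (ζ + ζ ^ k) := by
    have hsh : ∑ x : G, f (y⁻¹ * (x⁻¹ * g * x) * y) = ∑ x : G, f (x⁻¹ * g * x) :=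
      Fintype.sum_equiv (Equiv.mulRight y) _ _ fun x => by
        simp only [Equiv.coe_mulRight, mul_inv_rev, mul_assoc]
    nth_rewrite 2 [← hsh]
    rw [← Finset.sum_add_distrib, Finset.sum_congr rfl fun x _ => hkey x, ← Finset.sum_filter,
      Finset.sum_const, nsmul_eq_mul]
  have hmem := apply_mem_valueField
    (CharInd.isCharacter_indFun H (Char.isCharacter_of_irr (Char.isIrrCharacter_monoidHom lam))) g
  have hval : (Nat.card H : ℂ) * indFun H (fun h => (lam h : ℂ)) g = ∑ x : G, f (x⁻¹ * g * x) :=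
    CharInd.card_mul_indFun H (fun h => (lam h : ℂ)) g
  have hmem2 : ∑ x : G, f (x⁻¹ * g * x) ∈ valueField g :=
    hval ▸ mul_mem (_root_.natCast_mem _ _) hmem
  have hne : ((Finset.univ.filter fun x : G => x⁻¹ * g * x ∈ H).card : ℂ) ≠ 0 :=
    Nat.cast_ne_zero.2 (Finset.card_pos.2 ⟨1, Finset.mem_filter.2 ⟨Finset.mem_univ _, by
      simp [hH]⟩⟩).ne'
  have e : ζ + ζ ^ k = (∑ x : G, f (x⁻¹ * g * x) + ∑ x : G, f (x⁻¹ * g * x)) /
      ((Finset.univ.filter fun x : G => x⁻¹ * g * x ∈ H).card : ℂ) := by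
    rw [hsum, mul_div_cancel_left₀ _ hne]
  rw [e]
  exact div_mem (add_mem hmem2 hmem2) (_root_.natCast_mem _ _)

/-- An embedding fixing generators fixes the generated field. -/
theorem fixed_of_mem_adjoin {L : IntermediateField ℚ ℂ} (φ : L →ₐ[ℚ] ℂ) {S : Set ℂ}
    (hS : ∀ x ∈ S, ∃ h : x ∈ L, φ ⟨x, h⟩ = x) :
    ∀ x ∈ adjoin ℚ S, ∃ h : x ∈ L, φ ⟨x, h⟩ = x := by
  intro x hx
  induction hx using IntermediateField.adjoin_induction with
  | mem x hx => exact hS x hx
  | algebraMap q => exact ⟨L.algebraMap_mem q, φ.commutes q⟩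
  | add x y _ _ h h' =>
    obtain ⟨a, ha⟩ := h
    obtain ⟨b, hb⟩ := h'
    exact ⟨add_mem a b, (map_add φ ⟨x, a⟩ ⟨y, b⟩).trans (by rw [ha, hb])⟩
  | inv x _ h =>
    obtain ⟨a, ha⟩ := h
    exact ⟨inv_mem a, (map_inv₀ φ ⟨x, a⟩).trans (by rw [ha])⟩
  | mul x y _ _ h h' =>
    obtain ⟨a, ha⟩ := h
    obtain ⟨b, hb⟩ := h'
    exact ⟨mul_mem a b, (map_mul φ ⟨x, a⟩ ⟨y, b⟩).trans (by rw [ha, hb])⟩

/-- The embedding `ζ ↦ ζ ^ j` maps a character value at `g` to the value at `g ^ j`. -/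
theorem hom_apply_value [Finite G] {g : G} {N j : ℕ} (hN : 0 < N) {ζ : ℂ}
    (hζ : IsPrimitiveRoot ζ N) (hg : orderOf g ∣ N)
    (φ : adjoin ℚ ({ζ} : Set ℂ) →ₐ[ℚ] ℂ)
    (hφ : φ ⟨ζ, mem_adjoin_simple_self ℚ ζ⟩ = ζ ^ j) {χ : G → ℂ} (hχ : IsCharacter G χ) :
    ∃ h : χ g ∈ adjoin ℚ ({ζ} : Set ℂ), φ ⟨χ g, h⟩ = χ (g ^ j) := by
  obtain ⟨d, c, hc⟩ := LinearBound.exists_pow_sum hχ hN hζ hg
  have h1 : χ g = ∑ i, ζ ^ c i := by simpa using hc 1
  have hmem : ∀ i, ζ ^ c i ∈ adjoin ℚ ({ζ} : Set ℂ) := fun i =>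
    pow_mem (mem_adjoin_simple_self ℚ ζ) _
  refine ⟨h1 ▸ sum_mem fun i _ => hmem i, ?_⟩
  have e : (⟨χ g, h1 ▸ sum_mem fun i _ => hmem i⟩ : adjoin ℚ ({ζ} : Set ℂ)) =
      ∑ i, (⟨ζ, mem_adjoin_simple_self ℚ ζ⟩ : adjoin ℚ ({ζ} : Set ℂ)) ^ c i :=
    Subtype.ext (by push_cast; exact h1)
  rw [e, map_sum, hc j]
  refine Finset.sum_congr rfl fun i _ => ?_
  rw [map_pow, hφ, ← pow_mul, mul_comm, pow_mul]

/-- An embedding fixing every value at `g` gives a conjugate power of `g`. -/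
theorem isConj_pow_of_fixed [Finite G] {g : G} {N j : ℕ} (hN : 0 < N) {ζ : ℂ}
    (hζ : IsPrimitiveRoot ζ N) (hg : orderOf g ∣ N)
    (φ : adjoin ℚ ({ζ} : Set ℂ) →ₐ[ℚ] ℂ)
    (hφ : φ ⟨ζ, mem_adjoin_simple_self ℚ ζ⟩ = ζ ^ j)
    (hfix : ∀ x ∈ valueField g, ∃ h : x ∈ adjoin ℚ ({ζ} : Set ℂ), φ ⟨x, h⟩ = x) :
    IsConj g (g ^ j) := by
  refine BlocksChar.isConj_of_forall_irr_eq fun χ => ?_
  obtain ⟨_, h1⟩ := hom_apply_value hN hζ hg φ hφ (Char.isCharacter_of_irr χ.2)
  obtain ⟨_, h2⟩ := hfix _ (subset_adjoin _ _ ⟨χ, rfl⟩)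
  exact h2.symm.trans h1

end Cfsg.Agent.FieldTwo
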