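import Cfsg.Agent.FieldTwo.Field
import Cfsg.Agent.TwoGroups.MaxClassCriterion

/-!
Sylow `2`-subgroups of maximal class recognised from one field of character values.
-/

set_option autoImplicit false
set_option linter.style.haveILetI false

noncomputable section

namespace Cfsg.Agent.FieldTwo

open Cfsg IntermediateField
open scoped Classical commutatorElement

universe u

variable {G : Type u} [Group G] [Finite G]

/-- The two exponents of maximal class: `-1` and `-1 + 2 ^ (d - 1)` modulo `2 ^ d`. -/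
def IsTwist (d k : ℕ) : Prop :=
  k = 2 ^ d - 1 ∨ (3 ≤ d ∧ k = 2 ^ (d - 1) - 1)

theorem IsTwist.mul_self {d k : ℕ} (hd : 2 ≤ d) (h : IsTwist d k) : k * k ≡ 1 [MOD 2 ^ d] := by
  rw [Nat.modEq_iff_dvd]
  rcases h with rfl | ⟨h3, rfl⟩
  · refine ⟨2 - (2 : ℤ) ^ d, ?_⟩
    rw [Nat.cast_mul, Nat.cast_sub Nat.one_le_two_pow]
    push_cast
    ring
  · obtain ⟨e, rfl⟩ : ∃ e, d = e + 3 := ⟨d - 3, by omega⟩
    refine ⟨1 - (2 : ℤ) ^ (e + 1), ?_⟩
    rw [Nat.cast_mul, Nat.cast_sub Nat.one_le_two_pow, show e + 3 - 1 = e + 2 by omega]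
    push_cast
    ring

theorem IsTwist.two_mul_odd {d k : ℕ} (hd : 2 ≤ d) (h : IsTwist d k) :
    ∃ u : ℕ, Odd u ∧ k = 2 * u + 1 := by
  rcases h with rfl | ⟨h3, rfl⟩
  · obtain ⟨e, rfl⟩ : ∃ e, d = e + 2 := ⟨d - 2, by omega⟩
    refine ⟨2 ^ (e + 1) - 1, ⟨2 ^ e - 1, ?_⟩, ?_⟩ <;>
      (have := Nat.one_le_two_pow (n := e); simp only [pow_succ] at *; omega)
  · obtain ⟨e, rfl⟩ : ∃ e, d = e + 3 := ⟨d - 3, by omega⟩
    have := Nat.one_le_two_pow (n := e)
    refine ⟨2 ^ (e + 1) - 1, ⟨2 ^ e - 1, ?_⟩, ?_⟩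
    · rw [pow_succ]; omega
    · rw [show e + 3 - 1 = e + 1 + 1 by omega, pow_succ, pow_succ]; omega

theorem IsTwist.coprime {d k : ℕ} (hd : 2 ≤ d) (h : IsTwist d k) : k.Coprime (2 ^ d) := by
  obtain ⟨u, -, rfl⟩ := h.two_mul_odd hd
  exact Nat.Coprime.pow_right d (Nat.coprime_two_right.2 (odd_two_mul_add_one u))

/-- The two twists on a primitive root. -/
theorem IsTwist.root {d k : ℕ} (hd : 2 ≤ d) (h : IsTwist d k) {ζ : ℂ}
    (hζ : IsPrimitiveRoot ζ (2 ^ d)) :
    (k = 2 ^ d - 1 ∧ ζ ^ k = ζ⁻¹ ∧ ζ * ζ ^ k = 1) ∨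
      (k = 2 ^ (d - 1) - 1 ∧ ζ ^ k = -ζ⁻¹ ∧ ζ * ζ ^ k = -1) := by
  have hne : ζ ≠ 0 := hζ.ne_zero (by positivity)
  rcases h with rfl | ⟨-, rfl⟩
  · have e : ζ * ζ ^ (2 ^ d - 1) = 1 := by
      rw [← pow_succ', Nat.sub_add_cancel Nat.one_le_two_pow, hζ.pow_eq_one]
    exact Or.inl ⟨rfl, eq_inv_of_mul_eq_one_right e, e⟩
  · have h2 : IsPrimitiveRoot (ζ ^ 2 ^ (d - 1)) 2 :=
      hζ.pow (by positivity) (by rw [← pow_succ, Nat.sub_add_cancel (by omega)])
    have e : ζ * ζ ^ (2 ^ (d - 1) - 1) = -1 := by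
      rw [← pow_succ', Nat.sub_add_cancel Nat.one_le_two_pow]
      exact h2.eq_neg_one_of_two_right
    refine Or.inr ⟨rfl, ?_, e⟩
    field_simp
    linear_combination e

/-- A non-central element of a Sylow `2`-subgroup of maximal class has a class of even size if its
order is at least four. -/
theorem even_class {P : Sylow 2 G} (hc : Nat.card (Subgroup.center (P : Subgroup G)) = 2) {g : G}
    {d : ℕ} (hd : 2 ≤ d) (hg : orderOf g = 2 ^ d) :
    2 ∣ (Subgroup.centralizer ({g} : Set G)).index := by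
  haveI : Fact (Nat.Prime 2) := ⟨Nat.prime_two⟩
  by_contra hodd
  set C := Subgroup.centralizer ({g} : Set G) with hC
  obtain ⟨S⟩ := (inferInstance : Nonempty (Sylow 2 C))
  set T := (S : Subgroup C).map C.subtype with hT
  have hTidx : ¬ 2 ∣ T.index := by
    rw [hT, Subgroup.index_map_subtype]
    exact Nat.prime_two.not_dvd_mul S.not_dvd_index hodd
  have hgC : ∀ t ∈ T, t * g = g * t := fun t ht =>
    (Subgroup.mem_centralizer_iff.1 (Subgroup.map_subtype_le _ ht) g rfl).symm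
  have hgp : IsPGroup 2 (Subgroup.zpowers g) := IsPGroup.of_card (by rw [Nat.card_zpowers, hg])
  have hnorm : Subgroup.zpowers g ≤ Subgroup.normalizer (T : Set G) := by
    rw [Subgroup.zpowers_le]
    refine Subgroup.mem_normalizer_iff.2 fun t => ⟨fun ht => ?_, fun ht => ?_⟩
    · rwa [← hgC t ht, mul_inv_cancel_right]
    · have h1 := hgC _ ht
      have h2 : t * g = g * t := by
        calc t * g = g⁻¹ * ((g * t * g⁻¹) * g) * g := by group
          _ = g⁻¹ * (g * (g * t * g⁻¹)) * g := by rw [h1]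
          _ = g * t := by group
      rwa [show g * t * g⁻¹ = t by rw [← h2, mul_inv_cancel_right]] at ht
  have hjoin : IsPGroup 2 (Subgroup.zpowers g ⊔ T : Subgroup G) :=
    hgp.to_sup_of_normal_right' (S.2.map _) hnorm
  let TT : Sylow 2 G := (S.2.map C.subtype).toSylow hTidx
  have heq : Subgroup.zpowers g ⊔ T = T := TT.is_maximal' hjoin le_sup_right
  have hgT : g ∈ T := heq ▸ Subgroup.mem_sup_left (Subgroup.mem_zpowers g)
  have hz : (⟨g, hgT⟩ : T) ∈ Subgroup.center T :=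
    Subgroup.mem_center_iff.2 fun t => Subtype.ext (hgC t t.2)
  have hcT : Nat.card (Subgroup.center T) = 2 := by
    rw [← hc]
    exact Nat.card_congr (Subgroup.centerCongr (Sylow.equiv TT P)).toEquiv
  have h1 : orderOf (⟨⟨g, hgT⟩, hz⟩ : Subgroup.center T) ∣ 2 := hcT ▸ orderOf_dvd_natCard _
  rw [Subgroup.orderOf_mk, Subgroup.orderOf_mk, hg] at h1
  have := Nat.le_of_dvd two_pos h1
  have := Nat.pow_le_pow_right (show 2 > 0 by norm_num) hd
  omega

/-- Forward direction. -/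
theorem exists_of_index_four {P : Sylow 2 G} {d : ℕ} (hd : 2 ≤ d)
    (hP : Nat.card P = 2 ^ (d + 1)) (h4 : (commutator (P : Subgroup G)).index = 4) {ζ : ℂ}
    (hζ : IsPrimitiveRoot ζ (2 ^ d)) :
    ∃ g : G, g ∈ (P : Subgroup G) ∧ 2 ∣ (Subgroup.centralizer ({g} : Set G)).index ∧
      (valueField g = adjoin ℚ ({ζ + ζ⁻¹} : Set ℂ) ∨ valueField g = adjoin ℚ ({ζ - ζ⁻¹} : Set ℂ)) := by
  haveI : Fact (Nat.Prime 2) := ⟨Nat.prime_two⟩
  have hne : commutator (P : Subgroup G) ≠ ⊥ := by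
    intro h
    rw [h, Subgroup.index_bot] at h4
    have h5 : 2 ^ (d + 1) = 2 ^ 2 := hP.symm.trans h4
    have := Nat.pow_right_injective le_rfl h5
    omega
  obtain ⟨m, a, b, r, hM⟩ := TwoGroups.exists_maxClassData P.2 h4 hne
  obtain rfl : m = d := by
    have := Nat.pow_right_injective le_rfl (hM.card.symm.trans hP)
    omega
  -- replace the integer exponent by a natural one
  obtain ⟨k, hk, hbk⟩ : ∃ k, IsTwist m k ∧ b * a * b⁻¹ = a ^ k := by
    obtain ⟨t, ht⟩ := hM.hr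
    have hm : (2 : ℤ) ^ m = 2 * 2 ^ (m - 1) := by
      rw [← pow_succ', Nat.sub_add_cancel (by omega)]
    rcases Int.even_or_odd t with ⟨s, rfl⟩ | ⟨s, rfl⟩
    · refine ⟨2 ^ m - 1, Or.inl rfl, ?_⟩
      rw [hM.conj, ← zpow_natCast a, hM.zpow_eq]
      refine ⟨s - 1, ?_⟩
      rw [Nat.cast_sub Nat.one_le_two_pow]
      push_cast
      linear_combination ht - (s : ℤ) * hm
    · have h3 : 3 ≤ m := by
        by_contra hlt
        obtain rfl : m = 2 := by omega
        have := hM.hr4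
        rw [ht] at this
        norm_num at this
        omega
      refine ⟨2 ^ (m - 1) - 1, Or.inr ⟨h3, rfl⟩, ?_⟩
      rw [hM.conj, ← zpow_natCast a, hM.zpow_eq]
      refine ⟨s, ?_⟩
      rw [Nat.cast_sub Nat.one_le_two_pow]
      push_cast
      linear_combination ht - (s : ℤ) * hm
  set g : G := (a : G) with hg
  have hgo : orderOf g = 2 ^ m := (Subgroup.orderOf_coe a).trans hM.order
  have hkk : g ^ (k * k) = g := by
    conv_rhs => rw [← pow_one g]
    exact pow_eq_pow_iff_modEq.2 (by rw [hgo]; exact hk.mul_self hd)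
  have hbg : (b : G) * g * (b : G)⁻¹ = g ^ k := congrArg Subtype.val hbk
  refine ⟨g, a.2, even_class hM.card_center hd hgo, ?_⟩
  -- conjugates of `g` inside `⟨g⟩`
  set H := Subgroup.zpowers g with hH
  set N := Subgroup.normalizer (H : Set G) with hN
  have hPconj : ∀ p ∈ (P : Subgroup G), p * g * p⁻¹ = g ∨ p * g * p⁻¹ = g ^ k := by
    intro p hp
    have hiff := Subgroup.mul_mem_iff_of_index_two hM.index_two (a := (⟨p, hp⟩ : (P : Subgroup G)))
      (b := b⁻¹)
    by_cases hpa : (⟨p, hp⟩ : (P : Subgroup G)) ∈ Subgroup.zpowers a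
    · obtain ⟨i, hi⟩ := hpa
      left
      have : p = g ^ i := by simpa [hg] using (congrArg Subtype.val hi).symm
      rw [this]
      group
    · right
      obtain ⟨i, hi⟩ := hiff.2 (by simp [hpa, hM.notMem])
      have : p * (b : G)⁻¹ = g ^ i := by simpa [hg] using (congrArg Subtype.val hi).symm
      rw [show p = g ^ i * b by rw [← this, inv_mul_cancel_right],
        show g ^ i * b * g * (g ^ i * b)⁻¹ = g ^ i * ((b : G) * g * (b : G)⁻¹) * (g ^ i)⁻¹ by group,
        hbg]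
      group
  have hPN : (P : Subgroup G) ≤ N := by
    intro p hp
    refine Subgroup.mem_normalizer_iff.2 fun z => ?_
    have hle : ∀ q ∈ (P : Subgroup G), ∀ z ∈ H, q * z * q⁻¹ ∈ H := by
      rintro q hq _ ⟨i, rfl⟩
      have e := map_zpow (MulAut.conj q) g i
      simp only [MulAut.conj_apply] at e
      show q * g ^ i * q⁻¹ ∈ H
      rw [e]
      refine zpow_mem ?_ i
      rcases hPconj q hq with h | h <;> rw [h]
      · exact Subgroup.mem_zpowers g
      · exact pow_mem (Subgroup.mem_zpowers g) k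
    refine ⟨hle p hp z, fun hz => ?_⟩
    have := hle p⁻¹ (inv_mem hp) _ hz
    rwa [show p⁻¹ * (p * z * p⁻¹) * p⁻¹⁻¹ = z by group] at this
  have honlyN : ∀ w ∈ N, w * g * w⁻¹ = g ∨ w * g * w⁻¹ = g ^ k := by
    set C₀ := H.normalizerMonoidHom.ker with hC₀
    set P₀ := (P : Subgroup G).subgroupOf N with hP₀
    have htop : C₀ ⊔ P₀ = ⊤ := by
      rw [← Subgroup.index_eq_one]
      have h1 : (C₀ ⊔ P₀).index ∣ 2 ^ (m - 1) := by
        refine (Subgroup.index_dvd_of_le le_sup_left).trans ?_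
        rw [hC₀, Subgroup.index_ker]
        refine (Subgroup.card_subgroup_dvd_card _).trans (dvd_of_eq ?_)
        rw [IsCyclic.card_mulAut, Nat.card_zpowers, hgo,
          Nat.totient_prime_pow Nat.prime_two (by omega)]
        simp
      have h2 : (C₀ ⊔ P₀).index ∣ (P : Subgroup G).index :=
        (Subgroup.index_dvd_of_le le_sup_right).trans (Subgroup.relIndex_dvd_index_of_le hPN)
      exact Nat.eq_one_of_dvd_coprimes
        (Nat.Coprime.pow_left _ (Nat.prime_two.coprime_iff_not_dvd.2 P.not_dvd_index)) h1 h2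
    intro w hw
    obtain ⟨c, hc, p, hp, hcp⟩ := Subgroup.mem_sup_of_normal_left.1
      (htop ▸ Subgroup.mem_top (⟨w, hw⟩ : N))
    have hce : ∀ z ∈ H, (c : G) * z = z * c := by
      intro z hz
      have := hc
      rw [hC₀, Subgroup.normalizerMonoidHom_ker] at this
      exact ((Subgroup.mem_subgroupOf.1 this) z hz).symm
    have hwe : w = (c : G) * p := congrArg Subtype.val hcp.symm
    rw [hwe, show (c : G) * p * g * ((c : G) * p)⁻¹ = (c : G) * ((p : G) * g * (p : G)⁻¹) * (c : G)⁻¹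
      by group]
    rcases hPconj p hp with h | h <;> rw [h]
    · left; rw [hce g (Subgroup.mem_zpowers g), mul_inv_cancel_right]
    · right; rw [hce _ (pow_mem (Subgroup.mem_zpowers g) k), mul_inv_cancel_right]
  have honly : ∀ x : G, x⁻¹ * g * x ∈ H → x⁻¹ * g * x = g ∨ x⁻¹ * g * x = g ^ k := by
    intro x hx
    have hmap : H.map (MulAut.conj x⁻¹).toMonoidHom = H := by
      refine Subgroup.eq_of_le_of_card_ge ?_
        (Subgroup.card_map_of_injective (MulAut.conj x⁻¹).injective).ge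
      rw [hH, MonoidHom.map_zpowers, Subgroup.zpowers_le]
      simpa [hH] using hx
    have hxN : x⁻¹ ∈ N := by
      refine Subgroup.mem_normalizer_iff.2 fun z => ⟨fun hz => ?_, fun hz => ?_⟩
      · rw [← hmap]; exact ⟨z, hz, rfl⟩
      · rw [← hmap] at hz
        obtain ⟨z', hz', he⟩ := hz
        rwa [show z = z' from ((MulAut.conj x⁻¹).injective he).symm]
    simpa using honlyN x⁻¹ hxN
  have hy : (b : G)⁻¹⁻¹ * g * (b : G)⁻¹ = g ^ k := by rw [inv_inv, hbg]
  have hle1 := le_valueField (Nat.two_pow_pos m) hζ hgo hy hkk honly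
  rcases hk.root hd hζ with ⟨-, e1, e2⟩ | ⟨-, e1, e2⟩
  · left
    have hle2 := valueField_le (g := g) (Nat.two_pow_pos m) hζ hgo.dvd
      (isConj_iff.2 ⟨b, hbg⟩) (Or.inl e2)
    rw [e1] at hle1 hle2
    exact le_antisymm hle2 hle1
  · right
    have hle2 := valueField_le (g := g) (Nat.two_pow_pos m) hζ hgo.dvd
      (isConj_iff.2 ⟨b, hbg⟩) (Or.inr e2)
    rw [e1, ← sub_eq_add_neg] at hle1 hle2
    exact le_antisymm hle2 hle1

/-- Backward direction, `d ≥ 3`. -/
theorem index_four_of_field {P : Sylow 2 G} {d k : ℕ} (hd : 3 ≤ d)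
    (hP : Nat.card P = 2 ^ (d + 1)) (hk : IsTwist d k) {ζ : ℂ}
    (hζ : IsPrimitiveRoot ζ (2 ^ d)) {g : G} (hgP : g ∈ (P : Subgroup G))
    (heven : 2 ∣ (Subgroup.centralizer ({g} : Set G)).index)
    (hF : valueField g = adjoin ℚ ({ζ + ζ ^ k} : Set ℂ)) :
    (commutator (P : Subgroup G)).index = 4 := by
  haveI : Fact (Nat.Prime 2) := ⟨Nat.prime_two⟩
  have hd2 : 2 ≤ d := by omega
  have hdvd : orderOf g ∣ 2 ^ d := by
    have h1 : orderOf (⟨g, hgP⟩ : (P : Subgroup G)) ∣ 2 ^ (d + 1) := hP ▸ orderOf_dvd_natCard _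
    rw [Subgroup.orderOf_mk] at h1
    obtain ⟨i, hi, hig⟩ := (Nat.dvd_prime_pow Nat.prime_two).1 h1
    rw [hig]
    refine Nat.pow_dvd_pow 2 ?_
    by_contra hlt
    obtain rfl : i = d + 1 := by omega
    have hle : (P : Subgroup G) ≤ Subgroup.centralizer ({g} : Set G) := by
      have : Subgroup.zpowers g = P := Subgroup.eq_of_le_of_card_ge (Subgroup.zpowers_le.2 hgP)
        (by rw [Nat.card_zpowers, hig, hP])
      rw [← this, Subgroup.zpowers_le, Subgroup.mem_centralizer_singleton_iff]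
    exact P.not_dvd_index (heven.trans (Subgroup.index_dvd_of_le hle))
  have hζm : ζ ∈ adjoin ℚ ({ζ} : Set ℂ) := mem_adjoin_simple_self ℚ ζ
  set s := ζ + ζ ^ k with hs
  have hsL : s ∈ adjoin ℚ ({ζ} : Set ℂ) := add_mem hζm (pow_mem hζm k)
  have hφs : ∀ {j : ℕ} (φ : adjoin ℚ ({ζ} : Set ℂ) →ₐ[ℚ] ℂ), φ ⟨ζ, hζm⟩ = ζ ^ j →
      φ ⟨s, hsL⟩ = ζ ^ j + (ζ ^ j) ^ k := by
    intro j φ hφ
    rw [show (⟨s, hsL⟩ : adjoin ℚ ({ζ} : Set ℂ)) = ⟨ζ, hζm⟩ + ⟨ζ, hζm⟩ ^ k from rfl, map_add,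
      map_pow, hφ]
  have hkk : k * k ≡ 1 [MOD 2 ^ d] := hk.mul_self hd2
  -- `g` is conjugate to `g ^ k`
  have hconj : IsConj g (g ^ k) := by
    obtain ⟨φ, hφ⟩ := LinearBound.exists_cyclotomic_hom (Nat.two_pow_pos d) hζ (hk.coprime hd2)
    refine isConj_pow_of_fixed (Nat.two_pow_pos d) hζ hdvd φ hφ ?_
    intro x hx
    refine fixed_of_mem_adjoin φ (S := {s}) ?_ x (hF ▸ hx)
    rintro _ rfl
    refine ⟨hsL, ?_⟩
    rw [hφs φ hφ, ← pow_mul, hs, add_comm]
    congr 1
    conv_rhs => rw [← pow_one ζ]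
    rw [← pow_mod_orderOf ζ (k * k), ← hζ.eq_orderOf, hkk,
      Nat.mod_eq_of_lt (Nat.one_lt_two_pow (by omega))]
  -- `g` has order exactly `2 ^ d`
  have hgo : orderOf g = 2 ^ d := by
    obtain ⟨i, hi, hig⟩ := (Nat.dvd_prime_pow Nat.prime_two).1 hdvd
    rcases eq_or_lt_of_le hi with rfl | hlt
    · exact hig
    exfalso
    have hj : (1 + 2 ^ (d - 1)).Coprime (2 ^ d) := by
      refine Nat.Coprime.pow_right d (Nat.coprime_two_right.2 ?_)
      exact odd_one.add_even ((Nat.even_pow' (by omega)).2 even_two)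
    obtain ⟨φ, hφ⟩ := LinearBound.exists_cyclotomic_hom (Nat.two_pow_pos d) hζ hj
    have hgj : g ^ (1 + 2 ^ (d - 1)) = g := by
      rw [pow_add, pow_one]
      obtain ⟨e, he⟩ : 2 ^ i ∣ 2 ^ (d - 1) := Nat.pow_dvd_pow 2 (by omega)
      rw [he, pow_mul, ← hig, pow_orderOf_eq_one, one_pow, mul_one]
    have hfix : ∀ x ∈ valueField g, ∃ h : x ∈ adjoin ℚ ({ζ} : Set ℂ), φ ⟨x, h⟩ = x := by
      refine fixed_of_mem_adjoin φ ?_
      rintro _ ⟨χ, rfl⟩
      obtain ⟨h, he⟩ := hom_apply_value (Nat.two_pow_pos d) hζ hdvd φ hφ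
        (Char.isCharacter_of_irr χ.2)
      exact ⟨h, he.trans (by rw [hgj])⟩
    obtain ⟨_, hfs⟩ := hfix s (hF.symm ▸ mem_adjoin_simple_self ℚ s)
    have hneg : ζ ^ (1 + 2 ^ (d - 1)) = -ζ := by
      have h2 : IsPrimitiveRoot (ζ ^ 2 ^ (d - 1)) 2 :=
        hζ.pow (by positivity) (by rw [← pow_succ, Nat.sub_add_cancel (by omega)])
      rw [pow_add, pow_one, h2.eq_neg_one_of_two_right, mul_neg_one]
    obtain ⟨u, -, hu⟩ := hk.two_mul_odd hd2
    rw [hφs φ hφ, hneg, Odd.neg_pow ⟨u, hu⟩] at hfs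
    have hzero : ζ ^ k = -ζ := by linear_combination (-1 / 2 : ℂ) * hfs
    have h4 : ζ ^ 4 = 1 := by
      rcases hk.root hd2 hζ with ⟨-, -, e⟩ | ⟨-, -, e⟩ <;> rw [hzero] at e
      · linear_combination (ζ * -ζ + 1) * e
      · linear_combination (ζ * -ζ - 1) * e
    have := Nat.le_of_dvd (by norm_num) (hζ.dvd_of_pow_eq_one 4 h4)
    have := Nat.pow_le_pow_right (show 2 > 0 by norm_num) hd
    omega
  -- a `2`-element inducing the twist
  obtain ⟨y₀, hy₀⟩ := isConj_iff.1 hconj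
  obtain ⟨a₀, m, hmodd, hord⟩ :=
    Nat.exists_eq_pow_mul_and_not_dvd (orderOf_pos y₀).ne' 2 (by norm_num)
  set y := y₀ ^ m with hy
  have hiter : ∀ j : ℕ, y₀ ^ j * g * (y₀ ^ j)⁻¹ = g ^ (k ^ j) := by
    intro j
    induction j with
    | zero => simp
    | succ j ih =>
      have e := map_pow (MulAut.conj y₀) g (k ^ j)
      simp only [MulAut.conj_apply] at e
      calc y₀ ^ (j + 1) * g * (y₀ ^ (j + 1))⁻¹ = y₀ * (y₀ ^ j * g * (y₀ ^ j)⁻¹) * y₀⁻¹ := by group
        _ = g ^ (k ^ (j + 1)) := by rw [ih, e, hy₀, ← pow_mul, pow_succ']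
  have hyg : y * g * y⁻¹ = g ^ k := by
    rw [hy, hiter m]
    refine pow_eq_pow_iff_modEq.2 ?_
    rw [hgo]
    obtain ⟨i, rfl⟩ : Odd m := Nat.odd_iff.2 (by omega)
    rw [pow_succ, pow_mul, pow_two]
    simpa using (hkk.pow i).mul_right k
  set H := Subgroup.zpowers g with hH
  have hyn : Subgroup.zpowers y ≤ Subgroup.normalizer (H : Set G) := by
    rw [Subgroup.zpowers_le, Subgroup.mem_normalizer_iff]
    have hmap : H.map (MulAut.conj y).toMonoidHom = H := by
      refine Subgroup.eq_of_le_of_card_ge ?_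
        (Subgroup.card_map_of_injective (MulAut.conj y).injective).ge
      rw [hH, MonoidHom.map_zpowers, Subgroup.zpowers_le]
      show y * g * y⁻¹ ∈ _
      rw [hyg]
      exact pow_mem (Subgroup.mem_zpowers g) k
    refine fun z => ⟨fun hz => ?_, fun hz => ?_⟩
    · rw [← hmap]; exact ⟨z, hz, rfl⟩
    · rw [← hmap] at hz
      obtain ⟨z', hz', he⟩ := hz
      rwa [show z = z' from ((MulAut.conj y).injective he).symm]
  have hJ : IsPGroup 2 (H ⊔ Subgroup.zpowers y : Subgroup G) := by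
    refine IsPGroup.to_sup_of_normal_left' (IsPGroup.of_card (by rw [Nat.card_zpowers, hgo])) ?_ hyn
    obtain ⟨c, -, hc⟩ := (Nat.dvd_prime_pow Nat.prime_two).1 (show orderOf y ∣ 2 ^ a₀ from
      orderOf_dvd_of_pow_eq_one (by rw [hy, ← pow_mul, mul_comm, ← hord, pow_orderOf_eq_one]))
    exact IsPGroup.of_card (n := c) (by rw [Nat.card_zpowers, hc])
  obtain ⟨T, hT⟩ := hJ.exists_le_sylow
  let gT : T := ⟨g, hT (Subgroup.mem_sup_left (Subgroup.mem_zpowers g))⟩
  let yT : T := ⟨y, hT (Subgroup.mem_sup_right (Subgroup.mem_zpowers y))⟩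
  obtain ⟨u, hu, hku⟩ := hk.two_mul_odd hd2
  have hcom : (⁅yT, gT⁆ : T).1 = g ^ (2 * u) := by
    show y * g * y⁻¹ * g⁻¹ = _
    rw [hyg, hku, pow_succ, mul_inv_cancel_right]
  have hco : orderOf ⁅yT, gT⁆ = 2 ^ (d - 1) := by
    rw [← Subgroup.orderOf_coe, hcom, orderOf_pow, hgo]
    have : Nat.gcd (2 ^ d) (2 * u) = 2 := by
      rw [show 2 ^ d = 2 * 2 ^ (d - 1) by rw [← pow_succ', Nat.sub_add_cancel (by omega)],
        Nat.gcd_mul_left, (Nat.Coprime.pow_left (d - 1) (Nat.coprime_two_left.2 hu)).gcd_eq_one]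
    rw [this, show 2 ^ d = 2 ^ (d - 1) * 2 by rw [← pow_succ, Nat.sub_add_cancel (by omega)],
      Nat.mul_div_cancel _ two_pos]
  have hnc : ∃ a b : T, a * b ≠ b * a := ⟨yT, gT, fun h => by
    rw [← commutatorElement_eq_one_iff_mul_comm] at h
    rw [h, orderOf_one] at hco
    have := Nat.one_lt_two_pow (show d - 1 ≠ 0 by omega)
    omega⟩
  have h4 : 4 ≤ (commutator T).index := TwoGroups.four_le_index_commutator T.2 hnc
  have hle : 2 ^ (d - 1) ≤ Nat.card (commutator T) := by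
    rw [← hco, ← Nat.card_zpowers]
    exact Nat.le_of_dvd Nat.card_pos (Subgroup.card_dvd_of_le (Subgroup.zpowers_le.2
      (Subgroup.commutator_mem_commutator (Subgroup.mem_top _) (Subgroup.mem_top _))))
  have hTc : Nat.card T = 2 ^ (d + 1) := (Nat.card_congr (Sylow.equiv T P).toEquiv).trans hP
  have hprod := (commutator T).card_mul_index
  rw [hTc, show 2 ^ (d + 1) = 2 ^ (d - 1) * 4 by
    rw [show (4 : ℕ) = 2 ^ 2 by norm_num, ← pow_add]; congr 1; omega] at hprod
  have hT4 : (commutator T).index = 4 := by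
    refine le_antisymm ?_ h4
    refine Nat.le_of_mul_le_mul_left ?_ (Nat.two_pow_pos (d - 1))
    calc 2 ^ (d - 1) * (commutator T).index ≤ Nat.card (commutator T) * (commutator T).index :=
          Nat.mul_le_mul_right _ hle
      _ = 2 ^ (d - 1) * 4 := hprod
  rw [← hT4]
  have hmap : (commutator T).map ((Sylow.equiv T P : T ≃* P) : T →* P) = commutator P := by
    rw [commutator_def, commutator_def, Subgroup.map_commutator,
      Subgroup.map_top_of_surjective _ (Sylow.equiv T P).surjective]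
  rw [← hmap, Subgroup.index_map_equiv]

/-- Backward direction in order eight: any Sylow element with a class of even size makes the
group nonabelian. -/
theorem index_four_of_order_eight {P : Sylow 2 G} (hP : Nat.card P = 8) {g : G}
    (hgP : g ∈ (P : Subgroup G)) (heven : 2 ∣ (Subgroup.centralizer ({g} : Set G)).index) :
    (commutator (P : Subgroup G)).index = 4 := by
  haveI : Fact (Nat.Prime 2) := ⟨Nat.prime_two⟩
  have hnc : ∃ a b : (P : Subgroup G), a * b ≠ b * a := by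
    by_contra h
    push Not at h
    refine P.not_dvd_index (heven.trans (Subgroup.index_dvd_of_le fun p hp => ?_))
    exact Subgroup.mem_centralizer_singleton_iff.2
      (congrArg Subtype.val (h ⟨p, hp⟩ ⟨g, hgP⟩))
  have h4 := TwoGroups.four_le_index_commutator P.2 hnc
  have hc : 2 ≤ Nat.card (commutator (P : Subgroup G)) := by
    refine (Subgroup.one_lt_card_iff_ne_bot _).2 fun hb => ?_
    obtain ⟨a, b, hab⟩ := hnc
    exact hab (Subgroup.mem_center_iff.1
      (((commutator_eq_bot_iff_center_eq_top _).1 hb).symm ▸ Subgroup.mem_top b) a)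
  have := (commutator (P : Subgroup G)).card_mul_index
  rw [hP] at this
  nlinarith

end Cfsg.Agent.FieldTwo
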